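import Cfsg.Agent.FGS4.ThreeSizes.Basic
import Cfsg.Agent.OddLocal.Basic
import Mathlib.GroupTheory.Nilpotent

/-! # Class sizes `1`, `m`, `m * n`: centralizers of `q`-elements for `q ∣ m` are nilpotent -/

set_option linter.style.haveILetI false

namespace Cfsg.Agent.FGS4.ThreeSizes

open Subgroup

variable {G : Type*} [Group G] [Finite G]

/-- The class sizes are `1`, `m`, `m * n`, and only primes of `m * n` divide the order. -/
structure Hyp (G : Type*) [Group G] (m n : ℕ) : Prop where
  hm : 1 < m
  hn : 1 < n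
  hcop : m.Coprime n
  idx : ∀ x : G, (cz x).index = 1 ∨ (cz x).index = m ∨ (cz x).index = m * n
  exm : ∃ x : G, (cz x).index = m
  exmn : ∃ x : G, (cz x).index = m * n
  primes : ∀ r : ℕ, r.Prime → r ∣ Nat.card G → r ∣ m ∨ r ∣ n

/-- `r`-elements. -/
def IsEl (r : ℕ) (x : G) : Prop := ∃ k, orderOf x = r ^ k

omit [Finite G] in
theorem IsEl.coprime {r : ℕ} [hr : Fact r.Prime] {x : G} (hx : IsEl r x) {d : ℕ} (hd : ¬ r ∣ d) :
    (orderOf x).Coprime d := by
  obtain ⟨k, hk⟩ := hx; rw [hk]; exact ((hr.out.coprime_iff_not_dvd).2 hd).pow_left k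

omit [Finite G] in
theorem IsEl.coprime' {r s : ℕ} [hr : Fact r.Prime] [hs : Fact s.Prime] {x y : G} (hx : IsEl r x)
    (hy : IsEl s y) (hne : r ≠ s) : (orderOf x).Coprime (orderOf y) := by
  obtain ⟨k, hk⟩ := hx; obtain ⟨l, hl⟩ := hy
  rw [hk, hl]; exact Nat.Coprime.pow k l ((Nat.coprime_primes hr.out hs.out).2 hne)

theorem isEl_of_mem_pgroup {r : ℕ} [Fact r.Prime] {U : Subgroup G} (hU : IsPGroup r U) {x : G}
    (hx : x ∈ U) : IsEl r x := by
  obtain ⟨k, hk⟩ := IsPGroup.iff_orderOf.1 hU ⟨x, hx⟩
  exact ⟨k, by rwa [Subgroup.orderOf_mk] at hk⟩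

/-- Some `r`-element outside the centre in `H`. -/
theorem exists_noncentral_of_lt {r : ℕ} [hr : Fact r.Prime] {H : Subgroup G}
    (h : (Nat.card (center G)).factorization r < (Nat.card H).factorization r) :
    ∃ x ∈ H, IsEl r x ∧ x ∉ center G := by
  by_contra hne
  push Not at hne
  obtain ⟨S⟩ : Nonempty (Sylow r H) := inferInstance
  have hU : IsPGroup r ((S : Subgroup H).map H.subtype) := S.isPGroup'.map _
  have hle : (S : Subgroup H).map H.subtype ≤ center G := by
    intro x hx
    exact hne x (map_subtype_le _ hx) (isEl_of_mem_pgroup hU hx)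
  have h1 := le_fact_of_pgroup hU hle
  rw [card_map_of_injective H.subtype_injective, sylow_card_eq S] at h1
  have := (Nat.pow_le_pow_iff_right hr.out.one_lt).1 h1
  omega

/-- A noncentral `r`-element raises the `r`-part above the centre's. -/
theorem center_fact_lt {r : ℕ} [hr : Fact r.Prime] {H : Subgroup G} (hZ : center G ≤ H) {x : G}
    (hx : IsEl r x) (hxH : x ∈ H) (hxZ : x ∉ center G) :
    (Nat.card (center G)).factorization r < (Nat.card H).factorization r := by
  obtain ⟨S⟩ : Nonempty (Sylow r (center G)) := inferInstance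
  set U := (S : Subgroup (center G)).map (center G).subtype
  have hU : IsPGroup r U := S.isPGroup'.map _
  haveI : U.Normal := ⟨fun a ha g => by
    have hc := Subgroup.mem_center_iff.1 (map_subtype_le _ ha) g
    rwa [hc, mul_inv_cancel_right]⟩
  obtain ⟨k, hk⟩ := hx
  have hT : IsPGroup r (zpowers x ⊔ U : Subgroup G) :=
    IsPGroup.to_sup_of_normal_right (pgroup_zpowers hk) hU
  have hlt : Nat.card U < Nat.card (zpowers x ⊔ U : Subgroup G) := by
    by_contra hh
    have e : U = zpowers x ⊔ U := eq_of_le_of_card_ge le_sup_right (not_lt.1 hh)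
    exact hxZ (map_subtype_le _ (e ▸ mem_sup_left (mem_zpowers x) : x ∈ U))
  have h1 := le_fact_of_pgroup hT (sup_le (zpowers_le.2 hxH) ((map_subtype_le _).trans hZ))
  rw [card_map_of_injective (center G).subtype_injective, sylow_card_eq S] at hlt
  exact (Nat.pow_lt_pow_iff_right hr.out.one_lt).1 (hlt.trans_le h1)

theorem fact_le_center_of_forall {r : ℕ} [Fact r.Prime] {H : Subgroup G}
    (h : ∀ x ∈ H, IsEl r x → x ∈ center G) :
    (Nat.card H).factorization r ≤ (Nat.card (center G)).factorization r := by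
  by_contra hlt
  obtain ⟨x, hx, hxe, hxz⟩ := exists_noncentral_of_lt (not_le.1 hlt)
  exact hxz (h x hx hxe)

/-- Coprime elements of a nilpotent subgroup commute. -/
theorem commute_in {H : Subgroup G} [Group.IsNilpotent H] {x y : G} (hx : x ∈ H) (hy : y ∈ H)
    (hcop : (orderOf x).Coprime (orderOf y)) : Commute x y := by
  have h := OddLocal.commute_of_coprime_orderOf (x := (⟨x, hx⟩ : H)) (y := ⟨y, hy⟩)
    (by simpa only [Subgroup.orderOf_mk] using hcop)
  exact congrArg Subtype.val h.eq

/-- The Sylow `r`-subgroup of a nilpotent subgroup, as a subgroup of `G`. -/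
noncomputable def part (r : ℕ) [Fact r.Prime] (H : Subgroup G) : Subgroup G :=
  ((default : Sylow r H) : Subgroup H).map H.subtype

theorem part_le (r : ℕ) [Fact r.Prime] (H : Subgroup G) : part r H ≤ H := map_subtype_le _

theorem part_pgroup (r : ℕ) [Fact r.Prime] (H : Subgroup G) : IsPGroup r (part r H) :=
  (default : Sylow r H).isPGroup'.map _

theorem card_part (r : ℕ) [Fact r.Prime] (H : Subgroup G) :
    Nat.card (part r H) = r ^ (Nat.card H).factorization r := by
  rw [part, card_map_of_injective H.subtype_injective, sylow_card_eq]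

theorem mem_part {r : ℕ} [Fact r.Prime] {H : Subgroup G} [Group.IsNilpotent H] {x : G}
    (hx : IsEl r x) (hxH : x ∈ H) : x ∈ part r H := by
  obtain ⟨k, hk⟩ := hx
  exact mem_sylow_of_normal (hn := inferInstance) H _ hxH hk

theorem mem_part_iff {r : ℕ} [Fact r.Prime] {H : Subgroup G} [Group.IsNilpotent H] {x : G} :
    x ∈ part r H ↔ x ∈ H ∧ IsEl r x :=
  ⟨fun h => ⟨part_le r H h, isEl_of_mem_pgroup (part_pgroup r H) h⟩, fun h => mem_part h.2 h.1⟩

omit [Finite G] in
theorem IsEl.conj {r : ℕ} {x : G} (hx : IsEl r x) (g : G) : IsEl r (g * x * g⁻¹) := by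
  obtain ⟨k, hk⟩ := hx
  exact ⟨k, by rw [show g * x * g⁻¹ = MulAut.conj g x from rfl, MulEquiv.orderOf_eq, hk]⟩

omit [Finite G] in
theorem isEl_conj_iff {r : ℕ} {x g : G} : IsEl r (g * x * g⁻¹) ↔ IsEl r x := by
  refine ⟨fun h => ?_, fun h => h.conj g⟩
  have := h.conj g⁻¹
  simpa [mul_assoc] using this

theorem normalizer_le_normalizer_part {r : ℕ} [Fact r.Prime] {H : Subgroup G} [Group.IsNilpotent H] :
    normalizer (H : Set G) ≤ normalizer (part r H : Set G) := by
  intro g hg
  rw [mem_normalizer_iff] at hg ⊢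
  intro x
  rw [mem_part_iff, mem_part_iff, ← hg x, isEl_conj_iff]

theorem conj_mem_center_iff {x g : G} : g * x * g⁻¹ ∈ center G ↔ x ∈ center G := by
  refine ⟨fun h => ?_, fun h => Subgroup.Normal.conj_mem inferInstance x h g⟩
  have := Subgroup.Normal.conj_mem (inferInstance : (center G).Normal) _ h g⁻¹
  simpa [mul_assoc] using this

section

variable {m n : ℕ} (hh : Hyp G m n)
include hh

omit [Finite G] in
theorem Hyp.mpos : m ≠ 0 := by have := hh.hm; omega

omit [Finite G] in
theorem Hyp.npos : n ≠ 0 := by have := hh.hn; omega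

theorem Hyp.cases {x : G} (hx : x ∉ center G) : (cz x).index = m ∨ (cz x).index = m * n :=
  (hh.idx x).resolve_left fun h => hx (idx_one_iff.1 h)

theorem Hyp.noncentral_of_m {x : G} (hx : (cz x).index = m) : x ∉ center G := fun h => by
  have := hh.hm; rw [idx_one_iff.2 h] at hx; omega

theorem Hyp.noncentral_of_mn {x : G} (hx : (cz x).index = m * n) : x ∉ center G := fun h => by
  rw [idx_one_iff.2 h] at hx
  have := hh.hm
  have := (Nat.eq_one_of_mul_eq_one_right hx.symm)
  omega

theorem Hyp.ne_mn : m ≠ m * n := by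
  intro h
  have := hh.hm
  have := hh.hn
  nlinarith

theorem Hyp.eq_of_le {x y : G} (hy : y ∉ center G) (hle : cz x ≤ cz y) (h : (cz x).index = m) :
    cz x = cz y := by
  have hd := idx_dvd_of_le hle
  rw [h] at hd
  have hym : (cz y).index = m := by
    rcases hh.cases hy with e | e
    · exact e
    · rw [e] at hd
      have := Nat.le_of_dvd (by have := hh.hm; omega) hd
      have := hh.hn; have := hh.hm
      nlinarith
  refine eq_of_le_of_card_ge hle (le_of_eq ?_)
  apply Nat.eq_of_mul_eq_mul_right (by have := hh.hm; omega : 0 < m)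
  calc Nat.card (cz y) * m = Nat.card G := by rw [← hym]; exact (cz y).card_mul_index
    _ = Nat.card (cz x) * m := by rw [← h]; exact ((cz x).card_mul_index).symm

theorem Hyp.eq_of_le_mn {x y : G} (hle : cz x ≤ cz y) (hy : (cz y).index = m * n) (hx : x ∉ center G) :
    cz x = cz y := by
  refine eq_of_le_of_card_ge hle (le_of_eq ?_)
  have hd := idx_dvd_of_le hle
  rcases hh.cases hx with e | e
  · rw [e, hy] at hd
    have := Nat.le_of_dvd (by have := hh.hm; omega) hd
    have := hh.hn; have := hh.hm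
    nlinarith
  apply Nat.eq_of_mul_eq_mul_right (Nat.pos_of_ne_zero (Nat.mul_ne_zero hh.mpos hh.npos))
  calc Nat.card (cz y) * (m * n) = Nat.card G := by rw [← hy]; exact (cz y).card_mul_index
    _ = Nat.card (cz x) * (m * n) := by rw [← e]; exact ((cz x).card_mul_index).symm

omit [Finite G] in
theorem Hyp.not_dvd_n {q : ℕ} (hq : q.Prime) (hqm : q ∣ m) : ¬ q ∣ n := fun h =>
  hq.ne_one (Nat.eq_one_of_dvd_coprimes hh.hcop hqm h)

omit [Finite G] in
theorem Hyp.not_dvd_m {q : ℕ} (hq : q.Prime) (hqn : q ∣ n) : ¬ q ∣ m := fun h =>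
  hh.not_dvd_n hq h hqn

/-- For `q ∣ m` all noncentral centralizers have the same `q`-part. -/
theorem Hyp.fact_m {q : ℕ} (hq : q.Prime) (hqm : q ∣ m) {x : G} (hx : x ∉ center G) :
    (Nat.card (cz x)).factorization q + m.factorization q = (Nat.card G).factorization q := by
  rw [fact_card_mul (cz x) q]
  rcases hh.cases hx with e | e
  · rw [e]
  · rw [e, Nat.factorization_mul hh.mpos hh.npos]
    show _ = _ + (m.factorization q + n.factorization q)
    rw [Nat.factorization_eq_zero_of_not_dvd (hh.not_dvd_n hq hqm), add_zero]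

theorem Hyp.fact_eq {q : ℕ} (hq : q.Prime) (hqm : q ∣ m) {x y : G} (hx : x ∉ center G)
    (hy : y ∉ center G) : (Nat.card (cz x)).factorization q = (Nat.card (cz y)).factorization q := by
  have := hh.fact_m hq hqm hx
  have := hh.fact_m hq hqm hy
  omega

theorem Hyp.fact_full {r : ℕ} (hrm : ¬ r ∣ m) {x : G} (hx : (cz x).index = m) :
    (Nat.card (cz x)).factorization r = (Nat.card G).factorization r := by
  rw [fact_card_mul (cz x) r, hx, Nat.factorization_eq_zero_of_not_dvd hrm, add_zero]

theorem Hyp.sylow_center {q : ℕ} [hq : Fact q.Prime] (hqm : q ∣ m) (Q : Sylow q G) {z : G}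
    (h : ∀ y ∈ (Q : Subgroup G), y * z = z * y) : z ∈ center G := by
  by_contra hz
  apply Q.not_dvd_index
  refine (hqm.trans ?_).trans (index_dvd_of_le (K := cz z) fun y hy => mem_cz.2 (h y hy))
  rcases hh.cases hz with e | e
  · exact dvd_of_eq e.symm
  · exact ⟨n, e⟩

theorem Hyp.exists_el {q : ℕ} [hq : Fact q.Prime] (hqm : q ∣ m) {x : G} (hx : x ∉ center G) :
    ∃ u ∈ cz x, IsEl q u ∧ u ∉ center G := by
  obtain ⟨u, hu, huZ⟩ : ∃ u : G, IsEl q u ∧ u ∉ center G := by
    obtain ⟨Q⟩ : Nonempty (Sylow q G) := inferInstance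
    by_contra hne
    push Not at hne
    obtain ⟨y, hy⟩ := hh.exm
    exact hh.noncentral_of_m hy (hh.sylow_center hqm Q fun w hw =>
      (Subgroup.mem_center_iff.1 (hne w (isEl_of_mem_pgroup Q.isPGroup' hw)) y).symm)
  refine exists_noncentral_of_lt ?_
  rw [hh.fact_eq hq.out hqm hx huZ]
  exact center_fact_lt (center_le_cz u) hu (self_mem_cz u) huZ

theorem Hyp.mul_idx {q : ℕ} [hq : Fact q.Prime] {u y : G} (hu : IsEl q u) (huZ : u ∉ center G)
    (hy : y ∈ cz u) (hyq : (orderOf y).Coprime q) :
    u * y ∉ center G ∧ cz (u * y) = cz u ⊓ cz y := by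
  obtain ⟨k, hk⟩ := hu
  have hcop : (orderOf u).Coprime (orderOf y) := by rw [hk]; exact (hyq.symm).pow_left k
  have hc : Commute u y := (mem_cz.1 hy).symm
  exact ⟨mul_notMem_center hc hcop huZ, cz_mul_eq hc hcop⟩

/-- In a centralizer of size `m * n` the `q'`-elements are central. -/
theorem Hyp.central_in_cz {q : ℕ} [Fact q.Prime] {u y : G} (hu : IsEl q u)
    (hidx : (cz u).index = m * n) (hy : y ∈ cz u) (hyq : (orderOf y).Coprime q) : cz u ≤ cz y := by
  obtain ⟨h1, h2⟩ := hh.mul_idx hu (hh.noncentral_of_mn hidx) hy hyq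
  have e := hh.eq_of_le_mn (x := u * y) (y := u) (h2 ▸ inf_le_left) hidx h1
  rw [h2] at e
  exact inf_eq_left.1 e

theorem Hyp.nilpotent {q : ℕ} [hq : Fact q.Prime] (hqm : q ∣ m) {u : G} (hu : IsEl q u)
    (huZ : u ∉ center G) : Group.IsNilpotent (cz u) := by
  set C := cz u with hC
  have hdec : ∀ y : C, (orderOf y).Coprime q →
      ∃ S : Sylow q C, ∀ s ∈ (S : Subgroup C), s * y = y * s := by
    intro y hy
    obtain ⟨h1, h2⟩ := hh.mul_idx hu huZ y.2 (by rwa [Subgroup.orderOf_coe])
    set U := cz (u * (y : G)) with hU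
    have hUle : U ≤ C := h2 ▸ inf_le_left
    have hUy : U ≤ cz (y : G) := h2 ▸ inf_le_right
    obtain ⟨S⟩ : Nonempty (Sylow q U) := inferInstance
    set S' := ((S : Subgroup U).map U.subtype).subgroupOf C
    have hcard : Nat.card S' = q ^ (Nat.card C).factorization q := by
      rw [Nat.card_congr (subgroupOfEquivOfLe ((map_subtype_le _).trans hUle)).toEquiv,
        card_map_of_injective U.subtype_injective, sylow_card_eq S, hh.fact_eq hq.out hqm huZ h1]
    refine ⟨Sylow.ofCard S' hcard, fun s hs => ?_⟩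
    rw [Sylow.coe_ofCard] at hs
    exact Subtype.ext (mem_cz.1 (hUy (map_subtype_le _ (mem_subgroupOf.1 hs))))
  obtain ⟨Q⟩ : Nonempty (Sylow q C) := inferInstance
  obtain ⟨hQn, hQc⟩ := decompose hdec Q
  refine isNilpotent_decompose Q hQc fun K hKc hK => ?_
  have hqK : ∀ y : K, (orderOf (y : C)).Coprime q := fun y => by
    rw [Subgroup.orderOf_coe]
    exact hK.coprime_dvd_left (orderOf_dvd_natCard y)
  have key : FGS3.TwoClassSizes.TwoSizes K n := by
    intro y
    obtain ⟨h1, h2⟩ := hh.mul_idx hu huZ (y : C).2 (by rw [Subgroup.orderOf_coe]; exact hqK y)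
    set A := (cz ((y : C) : G)).subgroupOf C with hA
    have hAidx : A.index * C.index = (cz (u * ((y : C) : G))).index := by
      rw [h2, ← relIndex_mul_index (inf_le_left : cz u ⊓ cz ((y : C) : G) ≤ cz u), inf_relIndex_left]
      rfl
    have hA1n : A.index = 1 ∨ A.index = n := by
      have hm0 := Nat.pos_of_ne_zero hh.mpos
      rcases hh.cases huZ with e | e <;> rcases hh.cases h1 with e' | e' <;> rw [e, e'] at hAidx
      · exact Or.inl (Nat.eq_of_mul_eq_mul_right hm0 (by rw [one_mul]; exact hAidx))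
      · exact Or.inr (Nat.eq_of_mul_eq_mul_right hm0 (by rw [hAidx, mul_comm]))
      · exfalso
        have h4 : A.index * n = 1 := Nat.eq_of_mul_eq_mul_left hm0 (by rw [mul_one]; linarith)
        have := Nat.eq_one_of_mul_eq_one_left h4
        have := hh.hn
        omega
      · exact Or.inl (Nat.eq_of_mul_eq_mul_right (Nat.mul_pos hm0 (Nat.pos_of_ne_zero hh.npos))
          (by rw [one_mul]; exact hAidx))
    have hcent : centralizer ({y} : Set K) = A.subgroupOf K := by
      ext w
      rw [mem_centralizer_singleton_iff, mem_subgroupOf, hA, mem_subgroupOf, mem_cz]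
      exact ⟨fun e => congrArg (fun z : K => ((z : C) : G)) e, fun e => Subtype.ext (Subtype.ext e)⟩
    have hQA : (Q : Subgroup C) ≤ A := fun s hs => by
      rw [hA, mem_subgroupOf, mem_cz]
      exact congrArg Subtype.val (hQc _ (hqK y) s hs)
    have heq : (centralizer ({y} : Set K)).index = A.index := by
      rw [hcent, index_eq_card, index_eq_card]
      refine Nat.card_congr (Equiv.ofBijective (Quotient.lift (fun k : K => ((k : C) : C ⧸ A))
        (fun a b h => QuotientGroup.eq.2 (QuotientGroup.leftRel_apply.1 h :))) ⟨?_, ?_⟩)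
      · intro a b
        induction a using QuotientGroup.induction_on with | _ a => ?_
        induction b using QuotientGroup.induction_on with | _ b => ?_
        intro h
        exact QuotientGroup.eq.2 (QuotientGroup.eq.1 (show ((a : C) : C ⧸ A) = ((b : C) : C ⧸ A) from h) :)
      · intro c
        induction c using QuotientGroup.induction_on with | _ c => ?_
        obtain ⟨⟨k, s⟩, hks⟩ := hKc.2 c
        refine ⟨(k : K ⧸ A.subgroupOf K), ?_⟩
        show ((k : C) : C ⧸ A) = (c : C ⧸ A)
        rw [QuotientGroup.eq, ← hks]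
        simpa using hQA s.2
    rw [heq]; exact hA1n
  by_cases hne : ∃ y : K, y ∉ center K
  · obtain ⟨p, hp, hpq⟩ := key.exists_isPGroup_quotient hne
    haveI := Fact.mk hp
    haveI := hpq.isNilpotent
    exact of_quotient_center_nilpotent inferInstance
  · push Not at hne
    letI : CommGroup K := { (inferInstance : Group K) with mul_comm := fun a b => Subgroup.mem_center_iff.1 (hne b) a }
    exact CommGroup.isNilpotent

end

end Cfsg.Agent.FGS4.ThreeSizes
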